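import Mathlib

/-!
# S3814 (four primes, pairwise joined, no triple) : interfaces of the team project (helper95)

Everything is stated for a finite group `K` acting on a finite abelian group `V`
(`MulDistribMulAction K V`), the abstract form of `G = V ⋊ K` for a minimal counterexample `G`
(`V` a minimal normal subgroup, `K` a Hall complement).  No proofs in this file.
-/

set_option autoImplicit false

namespace Cfsg.Agent.Lib.Helper95.S3814

universe u v

/-- `x` has a nontrivial fixed point on `V` ("x is in Fix"). -/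
def Sing {K : Type u} (V : Type v) [Group K] [CommGroup V] [MulDistribMulAction K V] (x : K) :
    Prop :=
  ∃ v : V, v ≠ 1 ∧ x • v = v

/-- `x` is fixed point free on `V` ("x is Free"). -/
def Reg {K : Type u} (V : Type v) [Group K] [CommGroup V] [MulDistribMulAction K V] (x : K) :
    Prop :=
  ∀ v : V, x • v = v → v = 1

/-- `K1` contains commuting elements of orders `p` and `q`. -/
def HasPair {K : Type u} [Group K] (K1 : Subgroup K) (p q : ℕ) : Prop :=
  ∃ x ∈ K1, ∃ y ∈ K1, orderOf x = p ∧ orderOf y = q ∧ x * y = y * x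

/-- `K1` contains an element of order `p` with a nontrivial fixed point on `V`. -/
def HasSing {K : Type u} (V : Type v) [Group K] [CommGroup V] [MulDistribMulAction K V]
    (K1 : Subgroup K) (p : ℕ) : Prop :=
  ∃ x ∈ K1, orderOf x = p ∧ Sing V x

/-- `K` acts faithfully on `V`. -/
def Faithful (K : Type u) (V : Type v) [Group K] [CommGroup V] [MulDistribMulAction K V] : Prop :=
  ∀ k : K, (∀ v : V, k • v = v) → k = 1

/-- `N` is a minimal normal subgroup of `K`. -/
def MinNormal {K : Type u} [Group K] (N : Subgroup K) : Prop :=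
  N.Normal ∧ N ≠ ⊥ ∧ ∀ M : Subgroup K, M.Normal → M ≤ N → M = ⊥ ∨ M = N

/-- The minimal counterexample in the form `G = V ⋊ K`: `K` a solvable `{a,b,c}`-group acting
coprimely on the abelian group `V ≠ 1`.  SYMMETRIC in `a, b, c`. -/
structure Setting (K : Type u) (V : Type v) [Group K] [CommGroup V] [MulDistribMulAction K V]
    (a b c : ℕ) : Prop where
  finK : Finite K
  finV : Finite V
  pa : a.Prime
  pb : b.Prime
  pc : c.Prime
  hab : a ≠ b
  hac : a ≠ c
  hbc : b ≠ c
  cop : (Nat.card K).Coprime (Nat.card V)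
  ntV : ∃ v : V, v ≠ 1
  primes : ∀ p : ℕ, p.Prime → p ∣ Nat.card K → p = a ∨ p = b ∨ p = c
  solv : Group.IsSolvable K
  /-- `C_V(N) = 1` or `C_V(N) = V` for every normal subgroup `N` of `K` -/
  irr : ∀ N : Subgroup K, N.Normal → (∃ v : V, v ≠ 1 ∧ ∀ n ∈ N, n • v = v) →
    ∀ n ∈ N, ∀ v : V, n • v = v
  /-- commuting elements of distinct prime orders have no common fixed point (no `t·p·q`) -/
  free : ∀ x y : K, x * y = y * x → (orderOf x).Prime → (orderOf y).Prime →
    orderOf x ≠ orderOf y → ∀ v : V, x • v = v → y • v = v → v = 1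
  /-- no element of order `a·b·c` -/
  triple : ∀ x y z : K, orderOf x = a → orderOf y = b → orderOf z = c →
    x * y = y * x → x * z = z * x → y * z = z * y → False
  pair_ab : HasPair (⊤ : Subgroup K) a b
  pair_ac : HasPair (⊤ : Subgroup K) a c
  pair_bc : HasPair (⊤ : Subgroup K) b c
  /-- every Sylow subgroup has rank at least 2 -/
  rank : ∀ p : ℕ, p = a ∨ p = b ∨ p = c →
    ∃ x y : K, orderOf x = p ∧ orderOf y = p ∧ x * y = y * x ∧ y ∉ Subgroup.zpowers x
  /-- minimality of `G = V K` -/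
  min : ∀ K1 : Subgroup K, HasPair K1 a b → HasPair K1 a c → HasPair K1 b c →
    HasSing V K1 a → HasSing V K1 b → HasSing V K1 c → K1 = ⊤

/-- The goal of the abstract part: no `Setting` exists. -/
def Core : Prop :=
  ∀ (K : Type u) (V : Type v) [Group K] [CommGroup V] [MulDistribMulAction K V] (a b c : ℕ),
    Setting K V a b c → False

/-! ## The four cases -/

/-- [NF] the action is not faithful (`C_K(V) ≠ 1`). -/
def CaseNF : Prop :=
  ∀ (K : Type u) (V : Type v) [Group K] [CommGroup V] [MulDistribMulAction K V] (a b c : ℕ),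
    Setting K V a b c → ¬ Faithful K V → False

/-- [E] faithful, and `K` has a noncyclic minimal normal subgroup (an `a`-group). -/
def CaseE : Prop :=
  ∀ (K : Type u) (V : Type v) [Group K] [CommGroup V] [MulDistribMulAction K V] (a b c : ℕ),
    Setting K V a b c → Faithful K V →
    ∀ N : Subgroup K, MinNormal N → IsPGroup a N → ¬ IsCyclic N → False

/-- [D] faithful, every minimal normal subgroup is cyclic, and there are normal subgroups
`⟨n⟩`, `⟨m⟩` of prime orders `a` and `b`. -/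
def CaseD : Prop :=
  ∀ (K : Type u) (V : Type v) [Group K] [CommGroup V] [MulDistribMulAction K V] (a b c : ℕ),
    Setting K V a b c → Faithful K V →
    (∀ N : Subgroup K, MinNormal N → IsCyclic N) →
    ∀ n m : K, orderOf n = a → orderOf m = b → (Subgroup.zpowers n).Normal →
      (Subgroup.zpowers m).Normal → False

/-- [C] faithful, every minimal normal subgroup is cyclic, `⟨n⟩` normal of order `a`, and
`O_b(K) = 1 = O_c(K)` (so `F(K) = O_a(K)`). -/
def CaseC : Prop :=
  ∀ (K : Type u) (V : Type v) [Group K] [CommGroup V] [MulDistribMulAction K V] (a b c : ℕ),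
    Setting K V a b c → Faithful K V →
    (∀ N : Subgroup K, MinNormal N → IsCyclic N) →
    ∀ n : K, orderOf n = a → (Subgroup.zpowers n).Normal →
      (∀ B : Subgroup K, B.Normal → IsPGroup b B → B = ⊥) →
      (∀ B : Subgroup K, B.Normal → IsPGroup c B → B = ⊥) → False

/-! ## Tools (each a separate small package; the case packages may assume any of them) -/

/-- [T1] `⟨x, y⟩` elementary abelian of exponent `p` acting on an abelian `p'`-group `U ≠ 1`
(an invariant subgroup of `V`): `y` or some `x * y ^ i` has a nontrivial fixed point in `U`. -/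
def LemT1 : Prop :=
  ∀ (K : Type u) (V : Type v) [Group K] [CommGroup V] [MulDistribMulAction K V] [Finite V]
    (p : ℕ) (x y : K) (U : Subgroup V),
    p.Prime → x ^ p = 1 → y ^ p = 1 → x * y = y * x → (Nat.card U).Coprime p →
    (∀ v ∈ U, x • v ∈ U) → (∀ v ∈ U, y • v ∈ U) → U ≠ ⊥ →
    (∃ v ∈ U, v ≠ 1 ∧ y • v = v) ∨ ∃ i : ℕ, ∃ v ∈ U, v ≠ 1 ∧ (x * y ^ i) • v = v

/-- [T2] Frobenius-type action: `x` normalizes the subgroup `N` of `K`, every nontrivial power of
`x` has trivial centralizer in `N`, `N` and `x` act on `U ≤ V` (`U ≠ 1`, coprime to `|N|`) and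
`C_U(N) = 1`.  Then `x` has a nontrivial fixed point in `U`. -/
def LemT2 : Prop :=
  ∀ (K : Type u) (V : Type v) [Group K] [CommGroup V] [MulDistribMulAction K V] [Finite K]
    [Finite V] (N : Subgroup K) (x : K) (U : Subgroup V),
    (∀ n ∈ N, x * n * x⁻¹ ∈ N) →
    (∀ n ∈ N, ∀ i : ℕ, x ^ i ≠ 1 → x ^ i * n = n * x ^ i → n = 1) →
    (Nat.card N).Coprime (Nat.card U) →
    (∀ n ∈ N, ∀ v ∈ U, n • v ∈ U) → (∀ v ∈ U, x • v ∈ U) →
    (∃ v ∈ U, v ≠ 1) → (∀ v ∈ U, (∀ n ∈ N, n • v = v) → v = 1) →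
    ∃ v ∈ U, v ≠ 1 ∧ x • v = v

/-- [T2G] the same for the conjugation action on an abelian subgroup `W` of `G`: `x` normalizes
`N` and `W`, `N` normalizes `W`, nontrivial powers of `x` have trivial centralizer in `N`,
`C_W(N) = 1`, `W ≠ 1` abelian of order prime to `|N|`.  Then `C_W(x) ≠ 1`. -/
def LemT2G : Prop :=
  ∀ (G : Type u) [Group G] [Finite G] (N W : Subgroup G) (x : G),
    (∀ n ∈ N, x * n * x⁻¹ ∈ N) →
    (∀ n ∈ N, ∀ i : ℕ, x ^ i ≠ 1 → x ^ i * n = n * x ^ i → n = 1) →
    (Nat.card N).Coprime (Nat.card W) → (∀ w ∈ W, ∀ w' ∈ W, w * w' = w' * w) →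
    (∀ n ∈ N, ∀ w ∈ W, n * w * n⁻¹ ∈ W) → (∀ w ∈ W, x * w * x⁻¹ ∈ W) → W ≠ ⊥ →
    (∀ w ∈ W, (∀ n ∈ N, n * w = w * n) → w = 1) →
    ∃ w ∈ W, w ≠ 1 ∧ x * w = w * x

/-- [T3] an element `x` of prime order, fixed point free on `V`, centralizes every abelian
subgroup `B` of `K` which it normalizes, if `|B|` is prime to `|x|` and to `|V|` and `B` acts
faithfully on `V`. -/
def LemT3 : Prop :=
  ∀ (K : Type u) (V : Type v) [Group K] [CommGroup V] [MulDistribMulAction K V] [Finite K]
    [Finite V] (x : K) (B : Subgroup K),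
    (orderOf x).Prime → Reg V x → (∀ g ∈ B, ∀ h ∈ B, g * h = h * g) →
    (∀ g ∈ B, x * g * x⁻¹ ∈ B) → (Nat.card B).Coprime (orderOf x) →
    (Nat.card B).Coprime (Nat.card V) → (∀ g ∈ B, (∀ v : V, g • v = v) → g = 1) →
    ∀ g ∈ B, x * g = g * x

/-- [C1] the centralizer of a `Sing` element `x` of prime order: all elements of prime order
`≠ |x|` in `C_K(x)` have the SAME order, and `C_K(x)` contains no `C_q × C_q` for `q ≠ |x|`. -/
def LemC1 : Prop :=
  ∀ (K : Type u) (V : Type v) [Group K] [CommGroup V] [MulDistribMulAction K V] (a b c : ℕ),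
    Setting K V a b c → ∀ x : K, (orderOf x).Prime → Sing V x →
    (∀ y y' : K, x * y = y * x → x * y' = y' * x → (orderOf y).Prime → (orderOf y').Prime →
      orderOf y ≠ orderOf x → orderOf y' ≠ orderOf x → orderOf y = orderOf y') ∧
    (∀ y y' : K, x * y = y * x → x * y' = y' * x → y * y' = y' * y → (orderOf y).Prime →
      orderOf y ≠ orderOf x → orderOf y' = orderOf y → y' ∈ Subgroup.zpowers y)

/-- [M] (helper13) commuting `x, y` of distinct prime orders normalizing an abelian subgroup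
`A ≠ 1` of order prime to `|x| |y|`, `K` faithful: EXACTLY ONE of them centralizes `A`; if it is
`x` then `y` is fixed point free on `A`, `y` is `Sing`, and `x` is `Reg` provided `C_V(A) = 1`. -/
def LemM : Prop :=
  ∀ (K : Type u) (V : Type v) [Group K] [CommGroup V] [MulDistribMulAction K V] (a b c : ℕ),
    Setting K V a b c → Faithful K V →
    ∀ (x y : K) (A : Subgroup K), x * y = y * x → (orderOf x).Prime → (orderOf y).Prime →
      orderOf x ≠ orderOf y → A ≠ ⊥ → (∀ g ∈ A, ∀ h ∈ A, g * h = h * g) →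
      (Nat.card A).Coprime (orderOf x) → (Nat.card A).Coprime (orderOf y) →
      (∀ g ∈ A, x * g * x⁻¹ ∈ A) → (∀ g ∈ A, y * g * y⁻¹ ∈ A) →
      ((∀ g ∈ A, x * g = g * x) ∧ (∀ g ∈ A, y * g = g * y → g = 1) ∧ Sing V y ∧
          ((∀ v : V, (∀ g ∈ A, g • v = v) → v = 1) → Reg V x)) ∨
        ((∀ g ∈ A, y * g = g * y) ∧ (∀ g ∈ A, x * g = g * x → g = 1) ∧ Sing V x ∧
          ((∀ v : V, (∀ g ∈ A, g • v = v) → v = 1) → Reg V y))

/-- [A] (helper46) faithful, `⟨n⟩` normal of prime order `a`: one of the other two primes has no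
`Reg` element. -/
def LemA : Prop :=
  ∀ (K : Type u) (V : Type v) [Group K] [CommGroup V] [MulDistribMulAction K V] (a b c : ℕ),
    Setting K V a b c → Faithful K V → ∀ n : K, orderOf n = a → (Subgroup.zpowers n).Normal →
      (∀ z : K, orderOf z = c → Sing V z) ∨ (∀ y : K, orderOf y = b → Sing V y)

/-- [Y] (helper46's Lemma Y, replaces Hall–Higman): `A` an `a`-subgroup of `G` normalized by
`y` (prime order `b`) and `z` (prime order `c`, ODD), `z` normalizes `⟨y⟩` and does not centralize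
`y`, `C_A(z)` is cyclic, and `y` centralizes every abelian subgroup of `A` which it normalizes.
Then `y` centralizes `A`. -/
def LemY : Prop :=
  ∀ (G : Type u) [Group G] [Finite G] (a b c : ℕ) (A : Subgroup G) (y z : G),
    a.Prime → b.Prime → c.Prime → a ≠ b → a ≠ c → b ≠ c → c ≠ 2 →
    IsPGroup a A → orderOf y = b → orderOf z = c →
    (∀ g ∈ A, y * g * y⁻¹ ∈ A) → (∀ g ∈ A, z * g * z⁻¹ ∈ A) →
    z * y * z⁻¹ ∈ Subgroup.zpowers y → z * y ≠ y * z →
    IsCyclic ↥(A ⊓ Subgroup.centralizer ({z} : Set G)) →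
    (∀ B : Subgroup G, B ≤ A → (∀ g ∈ B, ∀ h ∈ B, g * h = h * g) →
      (∀ g ∈ B, y * g * y⁻¹ ∈ B) → ∀ g ∈ B, y * g = g * y) →
    ∀ g ∈ A, y * g = g * y

/-- [YLIN] the linear algebra inside Lemma Y, in multiplicative form: `M`, `Z` elementary abelian
`a`-groups, `y, z` automorphisms of `M` of prime orders `b, c` (`c` odd) with `z y z⁻¹ ∈ ⟨y⟩`,
`z y ≠ y z`, `y` fixed point free on `M`, the fixed points of `z` on `M` cyclic, and
`β : M → M → Z` bimultiplicative and `y`-invariant.  Then `β` is trivial. -/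
def LemYLin : Prop :=
  ∀ (M : Type u) (Z : Type v) [CommGroup M] [CommGroup Z] [Finite M] (a b c : ℕ)
    (y z : MulAut M) (β : M → M → Z),
    a.Prime → b.Prime → c.Prime → a ≠ b → a ≠ c → b ≠ c → c ≠ 2 →
    (∀ m : M, m ^ a = 1) → (∀ t : Z, t ^ a = 1) → orderOf y = b → orderOf z = c →
    z * y * z⁻¹ ∈ Subgroup.zpowers y → z * y ≠ y * z →
    (∀ m : M, y m = m → m = 1) →
    (∃ m0 : M, ∀ m : M, z m = m → m ∈ Subgroup.zpowers m0) →
    (∀ m1 m2 m3 : M, β (m1 * m2) m3 = β m1 m3 * β m2 m3) →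
    (∀ m1 m2 m3 : M, β m1 (m2 * m3) = β m1 m2 * β m1 m3) →
    (∀ m1 m2 : M, β (y m1) (y m2) = β m1 m2) →
    ∀ m1 m2 : M, β m1 m2 = 1

/-! ## The front end (reduction of the statement to `Core`) -/

/-- The minimal counterexample as a group `G`. -/
structure Ctx (G : Type u) [Group G] (σ : Finset ℕ) : Prop where
  fin : Finite G
  card : σ.card = 4
  prime : ∀ p ∈ σ, p.Prime
  sigma : ∀ p : ℕ, p.Prime → p ∣ Nat.card G → p ∈ σ
  h2 : ∀ p ∈ σ, ∀ q ∈ σ, p ≠ q → ∃ g : G, orderOf g = p * q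
  h3 : ∀ p ∈ σ, ∀ q ∈ σ, ∀ r ∈ σ, p ≠ q → q ≠ r → p ≠ r → ∀ g : G, orderOf g ≠ p * q * r
  solv : Group.IsSolvable G
  min : ∀ H : Subgroup G, (∀ p ∈ σ, ∀ q ∈ σ, p ≠ q → ∃ g ∈ H, orderOf g = p * q) → H = ⊤

/-- The statement of S3814 for groups in `Type u`. -/
def Target : Prop :=
  ∀ (G : Type u) [Group G] [Finite G] (σ : Finset ℕ), 4 ≤ σ.card → (∀ p ∈ σ, p.Prime) →
    (∀ p ∈ σ, ∀ q ∈ σ, p ≠ q → ∃ g : G, orderOf g = p * q) →
    (∀ p ∈ σ, ∀ q ∈ σ, ∀ r ∈ σ, p ≠ q → q ≠ r → p ≠ r → ∀ g : G, orderOf g ≠ p * q * r) →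
    ¬ Group.IsSolvable G

/-- [R0] reduction to a minimal counterexample with `|σ| = 4` and `G` a `σ`-group. -/
def PkgR0 : Prop :=
  (∀ (G : Type u) [Group G] (σ : Finset ℕ), Ctx G σ → False) → Target.{u}

/-- [S] in a minimal counterexample every Sylow `p`-subgroup (`p ∈ σ`) has rank at least 2. -/
def PkgS : Prop :=
  ∀ (G : Type u) [Group G] (σ : Finset ℕ), Ctx G σ → ∀ p ∈ σ,
    ∃ x y : G, orderOf x = p ∧ orderOf y = p ∧ x * y = y * x ∧ y ∉ Subgroup.zpowers x

/-- [V] a minimal counterexample gives a `Setting` (`V` a minimal normal subgroup, `K` a Hall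
complement acting by conjugation). -/
def PkgV : Prop :=
  ∀ (G : Type u) [Group G] (σ : Finset ℕ), Ctx G σ →
    (∀ p ∈ σ, ∃ x y : G, orderOf x = p ∧ orderOf y = p ∧ x * y = y * x ∧
      y ∉ Subgroup.zpowers x) →
    ∃ (K : Type u) (V : Type u) (_ : Group K) (_ : CommGroup V) (_ : MulDistribMulAction K V)
      (a b c : ℕ), Setting K V a b c

end Cfsg.Agent.Lib.Helper95.S3814
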